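import Mathlib
import Cfsg.Agent.H883.BR.Defs

/-!
# HUB BR (S5715, S5716), tasks C1, C2, C3, C5, C6 (helper545)
-/

set_option autoImplicit false
set_option linter.unusedVariables false

namespace Cfsg.Agent.H545.BR

open Cfsg.Agent.H883.BR
open scoped commutatorElement

universe u v w

/-! ### C1 -/

theorem dns_of_ad {K : Type u} [Field K] {G : Type w} [Group G] {V : Type v} [AddCommGroup V] [Module K V]
    {ρ : G →* Module.End K V} {H : Subgroup G} (h : Dns (ad ρ) H) : Dns ρ H := by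
  intro U hU g _ u hu
  by_cases hu0 : u = 0
  · rw [hu0, map_zero]; exact U.zero_mem
  obtain ⟨φ, hφ⟩ : ∃ φ : V →ₗ[K] K, φ u = 1 := by
    obtain ⟨f, hf⟩ : ∃ f : Module.Dual K V, f u ≠ 0 := by
      by_contra hcon
      push Not at hcon
      exact hu0 ((Module.forall_dual_apply_eq_zero_iff K u).1 hcon)
    exact ⟨(f u)⁻¹ • f, by rw [LinearMap.smul_apply, smul_eq_mul, inv_mul_cancel₀ hf]⟩
  -- the endomorphisms with image in `U`
  let S : Submodule K (Module.End K V) :=
    { carrier := {X | ∀ v, X v ∈ U}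
      zero_mem' := fun v => U.zero_mem
      add_mem' := fun {X Y} hX hY v => U.add_mem (hX v) (hY v)
      smul_mem' := fun c X hX v => U.smul_mem c (hX v) }
  have hS : Inv (ad ρ) H S := by
    intro k hk X hX v
    exact hU k hk _ (hX _)
  have h1 := h S hS g (Subgroup.mem_top g) (φ.smulRight u) (fun v => U.smul_mem _ hu) (ρ g u)
  rw [ad_apply] at h1
  have h2 : ρ g⁻¹ (ρ g u) = u := by
    rw [← Module.End.mul_apply, ← map_mul, inv_mul_cancel, map_one, Module.End.one_apply]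
  rw [Module.End.mul_apply, Module.End.mul_apply, h2, LinearMap.smulRight_apply, hφ, one_smul] at h1
  exact h1

/-! ### C2 -/

theorem dns_normal {K : Type u} [Field K] {G : Type w} [Group G] [Finite G] (hG : QS G) {V : Type v}
    [AddCommGroup V] [Module K V] [FiniteDimensional K V] {τ : G →* Module.End K V} {H M : Subgroup G}
    (h : Dns (ad τ) H) (hM : M ≤ H) (hn : ∀ h ∈ H, ∀ m ∈ M, h * m * h⁻¹ ∈ M) (hc : ¬ M ≤ Subgroup.center G) :
    Dns τ M := by
  set B : Submodule K (Module.End K V) := Submodule.span K {X | ∃ m ∈ M, τ m = X} with hB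
  have hMB : ∀ m ∈ M, τ m ∈ B := fun m hm => Submodule.subset_span ⟨m, hm, rfl⟩
  have hBH : Inv (ad τ) H B := by
    intro k hk X hX
    induction hX using Submodule.span_induction with
    | mem X hX =>
      obtain ⟨m, hm, rfl⟩ := hX
      rw [ad_apply, ← map_mul, ← map_mul]
      exact hMB _ (hn k hk m hm)
    | zero => rw [map_zero]; exact B.zero_mem
    | add X Y _ _ hX hY => rw [map_add]; exact B.add_mem hX hY
    | smul c X _ hX => rw [map_smul]; exact B.smul_mem c hX
  have hBG := h B hBH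
  have hmul : ∀ X ∈ B, ∀ Y ∈ B, X * Y ∈ B := by
    intro X hX Y hY
    induction hX using Submodule.span_induction with
    | mem X hX =>
      obtain ⟨m, hm, rfl⟩ := hX
      induction hY using Submodule.span_induction with
      | mem Y hY =>
        obtain ⟨m', hm', rfl⟩ := hY
        rw [← map_mul]
        exact hMB _ (M.mul_mem hm hm')
      | zero => rw [mul_zero]; exact B.zero_mem
      | add X Y _ _ hX hY => rw [mul_add]; exact B.add_mem hX hY
      | smul c X _ hX => rw [mul_smul_comm]; exact B.smul_mem c hX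
    | zero => rw [zero_mul]; exact B.zero_mem
    | add X Z _ _ hX hZ => rw [add_mul]; exact B.add_mem hX hZ
    | smul c X _ hX => rw [smul_mul_assoc]; exact B.smul_mem c hX
  have hone : τ 1 ∈ B := hMB 1 M.one_mem
  have hpow : ∀ (g : G) (k : ℕ), τ g ∈ B → τ (g ^ k) ∈ B := by
    intro g k hg
    induction k with
    | zero => rw [pow_zero]; exact hone
    | succ k ih => rw [pow_succ, map_mul]; exact hmul _ ih _ hg
  let N : Subgroup G :=
    { carrier := {g | τ g ∈ B}
      one_mem' := hone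
      mul_mem' := fun {a b} ha hb => by
        change τ (a * b) ∈ B
        rw [map_mul]; exact hmul _ ha _ hb
      inv_mem' := fun {a} ha => by
        change τ a⁻¹ ∈ B
        have h1 : a⁻¹ = a ^ (orderOf a - 1) := by
          have h2 : a * a ^ (orderOf a - 1) = 1 := by
            rw [← pow_succ', Nat.sub_add_cancel (orderOf_pos a), pow_orderOf_eq_one]
          exact inv_eq_of_mul_eq_one_right h2
        rw [h1]
        exact hpow a _ ha }
  have hN : N.Normal := by
    refine ⟨fun a ha x => ?_⟩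
    change τ (x * a * x⁻¹) ∈ B
    rw [map_mul, map_mul]
    exact hBG x (Subgroup.mem_top x) _ ha
  have hMN : M ≤ N := fun m hm => hMB m hm
  have hNt : N = ⊤ := (hG.max N hN).resolve_left fun h1 => hc (hMN.trans h1)
  intro U hU g _ u hu
  have hg : τ g ∈ B := by
    have : g ∈ N := hNt ▸ Subgroup.mem_top g
    exact this
  have key : ∀ X ∈ B, ∀ u ∈ U, X u ∈ U := by
    intro X hX
    induction hX using Submodule.span_induction with
    | mem X hX =>
      obtain ⟨m, hm, rfl⟩ := hX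
      exact hU m hm
    | zero => intro u _; exact U.zero_mem
    | add X Y _ _ hX hY => intro u hu; exact U.add_mem (hX u hu) (hY u hu)
    | smul c X _ hX => intro u hu; exact U.smul_mem c (hX u hu)
  exact key _ hg u hu

/-! ### C3 -/

theorem cent_scalar {K : Type u} [Field K] [IsAlgClosed K] {G : Type w} [Group G] {V : Type v} [AddCommGroup V]
    [Module K V] [FiniteDimensional K V] {ρ : G →* Module.End K V} {M : Subgroup G} (h : Irr ρ M)
    {X : Module.End K V} (hX : X ∈ cent ρ M) : ∃ c : K, X = c • 1 := by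
  obtain ⟨hnt, h⟩ := h
  obtain ⟨c, hc⟩ := Module.End.exists_eigenvalue X
  refine ⟨c, ?_⟩
  have h1 : Inv ρ M (Module.End.eigenspace X c) := by
    intro m hm v hv
    rw [Module.End.mem_eigenspace_iff] at hv ⊢
    rw [← Module.End.mul_apply, hX m hm, Module.End.mul_apply, hv, map_smul]
  rcases h _ h1 with h2 | h2
  · exact absurd h2 hc
  · refine LinearMap.ext fun v => ?_
    have h3 : v ∈ Module.End.eigenspace X c := h2 ▸ Submodule.mem_top
    rw [Module.End.mem_eigenspace_iff] at h3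
    rw [h3, LinearMap.smul_apply, Module.End.one_apply]

theorem Inv.sup {K : Type u} [Field K] {G : Type w} [Group G] {V : Type v} [AddCommGroup V] [Module K V]
    {ρ : G →* Module.End K V} {N : Subgroup G} {A B : Submodule K V} (hA : Inv ρ N A) (hB : Inv ρ N B) :
    Inv ρ N (A ⊔ B) := by
  intro n hn v hv
  obtain ⟨a, ha, b, hb, rfl⟩ := Submodule.mem_sup.1 hv
  rw [map_add]
  exact Submodule.add_mem_sup (hA n hn a ha) (hB n hn b hb)

theorem Inv.inf {K : Type u} [Field K] {G : Type w} [Group G] {V : Type v} [AddCommGroup V] [Module K V]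
    {ρ : G →* Module.End K V} {N : Subgroup G} {A B : Submodule K V} (hA : Inv ρ N A) (hB : Inv ρ N B) :
    Inv ρ N (A ⊓ B) := fun n hn v hv => ⟨hA n hn v hv.1, hB n hn v hv.2⟩

theorem ssm_of_normal {K : Type u} [Field K] {G : Type w} [Group G] {V : Type v} [AddCommGroup V]
    [Module K V] [FiniteDimensional K V] {ρ : G →* Module.End K V} {M N : Subgroup G} (h : Irr ρ M) (hN : N ≤ M)
    (hn : ∀ m ∈ M, ∀ x ∈ N, m * x * m⁻¹ ∈ N) : Ssm ρ N := by
  classical
  obtain ⟨hnt, h⟩ := h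
  intro U hU
  -- a minimal invariant subspace
  obtain ⟨S, ⟨hSN, hS0⟩, hSmin⟩ : ∃ S : Submodule K V, (Inv ρ N S ∧ S ≠ ⊥) ∧
      ∀ S' : Submodule K V, Inv ρ N S' ∧ S' ≠ ⊥ → S' ≤ S → S' = S := by
    have hwf : WellFounded ((· < ·) : Submodule K V → Submodule K V → Prop) := wellFounded_lt
    have hne : {S : Submodule K V | Inv ρ N S ∧ S ≠ ⊥}.Nonempty := by
      refine ⟨⊤, fun _ _ _ _ => Submodule.mem_top, ?_⟩
      exact top_ne_bot
    refine ⟨hwf.min _ hne, hwf.min_mem _ hne, fun S' hS' hle => ?_⟩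
    by_contra hcon
    exact hwf.not_lt_min _ hS' (lt_of_le_of_ne hle hcon)
  -- its translates
  have hinv1 : ∀ (m : G) (v : V), ρ m⁻¹ (ρ m v) = v := fun m v => by
    rw [← Module.End.mul_apply, ← map_mul, inv_mul_cancel, map_one, Module.End.one_apply]
  have hinv2 : ∀ (m : G) (v : V), ρ m (ρ m⁻¹ v) = v := fun m v => by
    rw [← Module.End.mul_apply, ← map_mul, mul_inv_cancel, map_one, Module.End.one_apply]
  have htr : ∀ m ∈ M, Inv ρ N (S.map (ρ m)) := by
    intro m hm x hx v hv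
    obtain ⟨s, hs, rfl⟩ := hv
    refine ⟨ρ (m⁻¹ * x * m) s, ?_, ?_⟩
    · apply hSN _ _ s hs
      have := hn m⁻¹ (M.inv_mem hm) x hx
      rwa [inv_inv] at this
    · rw [← Module.End.mul_apply, ← Module.End.mul_apply, ← map_mul, ← map_mul]
      congr 2
      group
  have htmin : ∀ m ∈ M, ∀ A : Submodule K V, Inv ρ N A → ¬ S.map (ρ m) ≤ A → S.map (ρ m) ⊓ A = ⊥ := by
    intro m hm A hA hnle
    by_contra hcon
    apply hnle
    have h1 : Inv ρ N ((S.map (ρ m) ⊓ A).map (ρ m⁻¹)) := by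
      intro x hx v hv
      obtain ⟨s, hs, rfl⟩ := hv
      refine ⟨ρ (m * x * m⁻¹) s, ?_, ?_⟩
      · exact Inv.inf (htr m hm) hA _ (hn m hm x hx) s hs
      · rw [← Module.End.mul_apply, ← Module.End.mul_apply, ← map_mul, ← map_mul]
        congr 2
        group
    have h2 : (S.map (ρ m) ⊓ A).map (ρ m⁻¹) ≤ S := by
      rintro _ ⟨v, ⟨⟨s, hs, rfl⟩, -⟩, rfl⟩
      rw [hinv1]
      exact hs
    have h3 : (S.map (ρ m) ⊓ A).map (ρ m⁻¹) ≠ ⊥ := by
      intro h4
      apply hcon
      rw [eq_bot_iff]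
      intro v hv
      have h5 : ρ m⁻¹ v ∈ (S.map (ρ m) ⊓ A).map (ρ m⁻¹) := ⟨v, hv, rfl⟩
      rw [h4, Submodule.mem_bot] at h5
      rw [Submodule.mem_bot, ← hinv2 m v, h5, map_zero]
    have h4 := hSmin _ ⟨h1, h3⟩ h2
    rintro _ ⟨s, hs, rfl⟩
    rw [← h4] at hs
    obtain ⟨v, hv, rfl⟩ := hs
    rw [hinv2]
    exact hv.2
  -- the maximal complement
  obtain ⟨W, ⟨hWN, hWU⟩, hWmax⟩ : ∃ W : Submodule K V, (Inv ρ N W ∧ U ⊓ W = ⊥) ∧
      ∀ W' : Submodule K V, Inv ρ N W' ∧ U ⊓ W' = ⊥ → W ≤ W' → W' = W := by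
    have hwf : WellFounded ((· > ·) : Submodule K V → Submodule K V → Prop) := wellFounded_gt
    have hne : {W : Submodule K V | Inv ρ N W ∧ U ⊓ W = ⊥}.Nonempty := by
      refine ⟨⊥, fun n _ v hv => ?_, inf_bot_eq _⟩
      rw [Submodule.mem_bot] at hv ⊢
      rw [hv, map_zero]
    refine ⟨hwf.min _ hne, hwf.min_mem _ hne, fun W' hW' hle => ?_⟩
    by_contra hcon
    exact hwf.not_lt_min _ hW' (lt_of_le_of_ne hle (Ne.symm hcon))
  refine ⟨W, hWN, disjoint_iff.2 hWU, codisjoint_iff.2 ?_⟩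
  by_contra hcon
  have hUW : Inv ρ N (U ⊔ W) := Inv.sup hU hWN
  obtain ⟨m, hm, hle⟩ : ∃ m ∈ M, ¬ S.map (ρ m) ≤ U ⊔ W := by
    by_contra hall
    push Not at hall
    apply hcon
    -- the sum of the translates
    set Z : Submodule K V := ⨆ m : M, S.map (ρ (m : G)) with hZ
    have hZinv : Inv ρ M Z := by
      intro k hk v hv
      have h1 : Z.map (ρ k) ≤ Z := by
        rw [hZ, Submodule.map_iSup]
        refine iSup_le fun m => ?_
        refine le_trans ?_ (le_iSup (fun m : M => S.map (ρ (m : G))) ⟨k * m, M.mul_mem hk m.2⟩)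
        rintro _ ⟨_, ⟨s, hs, rfl⟩, rfl⟩
        refine ⟨s, hs, ?_⟩
        change ρ (k * m) s = _
        rw [map_mul, Module.End.mul_apply]
      exact h1 ⟨v, hv, rfl⟩
    have hSZ : S ≤ Z := by
      refine le_trans ?_ (le_iSup (fun m : M => S.map (ρ (m : G))) 1)
      intro s hs
      refine ⟨s, hs, ?_⟩
      change ρ (1 : G) s = s
      rw [map_one, Module.End.one_apply]
    rcases h Z hZinv with h1 | h1
    · rw [h1, le_bot_iff] at hSZ
      exact absurd hSZ hS0
    · rw [eq_top_iff, ← h1]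
      exact iSup_le fun m => hall m m.2
  have h1 := htmin m hm _ hUW hle
  have h2 : U ⊓ (W ⊔ S.map (ρ m)) = ⊥ := by
    rw [eq_bot_iff]
    rintro v ⟨hv1, hv2⟩
    obtain ⟨a, ha, b, hb, rfl⟩ := Submodule.mem_sup.1 hv2
    have h3 : b ∈ U ⊔ W := by
      have h4 : b = (a + b) + (-a) := by abel
      rw [h4]
      exact Submodule.add_mem_sup hv1 (W.neg_mem ha)
    have h4 : b = 0 := by
      have h5 : b ∈ S.map (ρ m) ⊓ (U ⊔ W) := ⟨hb, h3⟩
      rwa [h1, Submodule.mem_bot] at h5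
    rw [h4, add_zero] at hv1 ⊢
    have h5 : a ∈ U ⊓ W := ⟨hv1, ha⟩
    rwa [hWU] at h5
  have h3 := hWmax _ ⟨Inv.sup hWN (htr m hm), h2⟩ le_sup_left
  apply hle
  rw [← h3]
  exact le_sup_right.trans le_sup_right

/-! ### C5 -/

/-- scalars are central -/
theorem comm_of_scalar {K : Type u} [Field K] {G : Type w} [Group G] {V : Type v}
    [AddCommGroup V] [Module K V] {ρ : G →* Module.End K V} (hinj : Function.Injective ρ) {x : G} {c : K}
    (hx : ρ x = c • 1) (g : G) : x * g = g * x := by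
  apply hinj
  rw [map_mul, map_mul, hx, smul_mul_assoc, one_mul, mul_smul_comm, mul_one]

/-- commutators with a fixed element, modulo the centre -/
theorem comm_mul {M : Type*} [Group M] {x a b : M} (ha : a * x * a⁻¹ * x⁻¹ ∈ Subgroup.center M)
    (hb : b * x * b⁻¹ * x⁻¹ ∈ Subgroup.center M) :
    (a * b) * x * (a * b)⁻¹ * x⁻¹ = (a * x * a⁻¹ * x⁻¹) * (b * x * b⁻¹ * x⁻¹) := by
  have h2 := Subgroup.mem_center_iff.1 hb a
  have h3 := Subgroup.mem_center_iff.1 ha (b * x * b⁻¹ * x⁻¹)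
  calc (a * b) * x * (a * b)⁻¹ * x⁻¹ = (a * (b * x * b⁻¹ * x⁻¹)) * x * a⁻¹ * x⁻¹ := by group
    _ = ((b * x * b⁻¹ * x⁻¹) * a) * x * a⁻¹ * x⁻¹ := by rw [h2]
    _ = (b * x * b⁻¹ * x⁻¹) * (a * x * a⁻¹ * x⁻¹) := by group
    _ = _ := h3

/-- the derived group of `P` commutes with `x` if `[P, x]` is central -/
theorem comm_of_center {M : Type*} [Group M] {P : Subgroup M} {x : M}
    (h : ∀ a ∈ P, a * x * a⁻¹ * x⁻¹ ∈ Subgroup.center M) : ∀ a ∈ ⁅P, P⁆, a * x = x * a := by
  have h1 : ⁅P, P⁆ ≤ Subgroup.centralizer {x} := by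
    rw [Subgroup.commutator_le]
    intro a ha b hb
    rw [Subgroup.mem_centralizer_singleton_iff]
    have ha' := h _ (P.inv_mem ha)
    have hb' := h _ (P.inv_mem hb)
    have h2 := comm_mul ha' hb'
    have h3 := comm_mul hb' ha'
    have h4 := Subgroup.mem_center_iff.1 ha' (b⁻¹ * x * b⁻¹⁻¹ * x⁻¹)
    rw [← h2, ← h3] at h4
    have h5 : (b⁻¹ * a⁻¹) * x * (b⁻¹ * a⁻¹)⁻¹ = (a⁻¹ * b⁻¹) * x * (a⁻¹ * b⁻¹)⁻¹ := mul_right_cancel h4
    have h6 : ⁅a, b⁆ = (b⁻¹ * a⁻¹)⁻¹ * (a⁻¹ * b⁻¹) := by rw [commutatorElement_def]; group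
    rw [h6]
    calc (b⁻¹ * a⁻¹)⁻¹ * (a⁻¹ * b⁻¹) * x
        = (b⁻¹ * a⁻¹)⁻¹ * ((a⁻¹ * b⁻¹) * x * (a⁻¹ * b⁻¹)⁻¹) * (a⁻¹ * b⁻¹) := by group
      _ = (b⁻¹ * a⁻¹)⁻¹ * ((b⁻¹ * a⁻¹) * x * (b⁻¹ * a⁻¹)⁻¹) * (a⁻¹ * b⁻¹) := by rw [h5]
      _ = x * ((b⁻¹ * a⁻¹)⁻¹ * (a⁻¹ * b⁻¹)) := by group
  intro a ha
  exact Subgroup.mem_centralizer_singleton_iff.1 (h1 ha)

theorem comm_central {M : Type*} [Group M] {z w a b : M} (hz : z ∈ Subgroup.center M)
    (hw : w ∈ Subgroup.center M) : ⁅z * a, w * b⁆ = ⁅a, b⁆ := by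
  have h1 := Subgroup.mem_center_iff.1 hz (a * (w * b) * a⁻¹)
  have h2 := Subgroup.mem_center_iff.1 hw a
  have h3 := Subgroup.mem_center_iff.1 hw (a * b * a⁻¹ * b⁻¹)
  rw [commutatorElement_def, commutatorElement_def]
  calc z * a * (w * b) * (z * a)⁻¹ * (w * b)⁻¹ = (z * (a * (w * b) * a⁻¹)) * z⁻¹ * (b⁻¹ * w⁻¹) := by group
    _ = ((a * (w * b) * a⁻¹) * z) * z⁻¹ * (b⁻¹ * w⁻¹) := by rw [h1]
    _ = (a * w) * b * a⁻¹ * b⁻¹ * w⁻¹ := by group
    _ = (w * a) * b * a⁻¹ * b⁻¹ * w⁻¹ := by rw [h2]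
    _ = (w * (a * b * a⁻¹ * b⁻¹)) * w⁻¹ := by group
    _ = ((a * b * a⁻¹ * b⁻¹) * w) * w⁻¹ := by rw [h3]
    _ = a * b * a⁻¹ * b⁻¹ := by group

/-- an automorphism trivial modulo the centre of a perfect group is trivial -/
theorem aut_trivial {M : Type*} [Group M] (hp : commutator M = ⊤) (α : MulAut M)
    (h : ∀ m, α m * m⁻¹ ∈ Subgroup.center M) (m : M) : α m = m := by
  have h1 : commutator M ≤ (α.toMonoidHom).eqLocus (MonoidHom.id M) := by
    rw [commutator_def, Subgroup.commutator_le]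
    intro a _ b _
    change α ⁅a, b⁆ = ⁅a, b⁆
    have ha : α a = (α a * a⁻¹) * a := by group
    have hb : α b = (α b * b⁻¹) * b := by group
    rw [map_commutatorElement, ha, hb]
    exact comm_central (h a) (h b)
  rw [hp] at h1
  exact h1 (Subgroup.mem_top m)

theorem one_component {K : Type u} [Field K] [IsAlgClosed K] {G : Type w} [Group G] [Finite G] {V : Type v}
    [AddCommGroup V] [Module K V] [FiniteDimensional K V] {ρ : G →* Module.End K V} (hinj : Function.Injective ρ)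
    (hT : TPrim ρ) {M : Subgroup G} (hM : Irr ρ M) (hD : Dns (ad ρ) M) (hp : commutator M = ⊤)
    {T : Type w} [Group T] [Finite T] [IsSimpleGroup T] (hna : ¬ IsMulCommutative T) {s : ℕ} (hs : 0 < s)
    (e : M ⧸ Subgroup.center M ≃* (Fin s → T)) : s = 1 := by
  classical
  by_contra hs1
  have hs2 : 2 ≤ s := by omega
  obtain ⟨i₀, i₁, hi⟩ : ∃ i₀ i₁ : Fin s, i₀ ≠ i₁ :=
    ⟨⟨0, by omega⟩, ⟨1, by omega⟩, fun h => by simpa using congrArg Fin.val h⟩
  let π : M →* (Fin s → T) := e.toMonoidHom.comp (QuotientGroup.mk' _)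
  have hπs : Function.Surjective π := e.surjective.comp (QuotientGroup.mk'_surjective _)
  have hπk : ∀ m : M, π m = 1 ↔ m ∈ Subgroup.center M := by
    intro m
    change e (QuotientGroup.mk' _ m) = 1 ↔ _
    rw [map_eq_one_iff e e.injective]
    exact QuotientGroup.eq_one_iff m
  -- the preimages of the factors
  let P : Fin s → Subgroup M := fun i =>
    { carrier := {m | ∀ j, j ≠ i → π m j = 1}
      one_mem' := fun j _ => by rw [map_one]; rfl
      mul_mem' := fun {a b} ha hb j hj => by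
        rw [map_mul, Pi.mul_apply, ha j hj, hb j hj, one_mul]
      inv_mem' := fun {a} ha j hj => by
        rw [map_inv, Pi.inv_apply, ha j hj, inv_one] }
  have hPn : ∀ i, (P i).Normal := fun i => by
    refine ⟨fun a ha x j hj => ?_⟩
    rw [map_mul, map_mul, Pi.mul_apply, Pi.mul_apply, ha j hj, mul_one, ← Pi.mul_apply, ← map_mul, mul_inv_cancel,
      map_one]
    rfl
  -- elements with a given component
  have hex : ∀ (i : Fin s) (t : T), ∃ m ∈ P i, π m i = t := by
    intro i t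
    obtain ⟨m, hm⟩ := hπs (Function.update 1 i t)
    refine ⟨m, fun j hj => ?_, ?_⟩
    · rw [hm, Function.update_of_ne hj]; rfl
    · rw [hm, Function.update_self]
  let L : Subgroup M := ⁅P i₀, P i₀⁆
  have hLn : L.Normal := by
    have := hPn i₀
    exact Subgroup.commutator_normal _ _
  let N : Subgroup G := L.map M.subtype
  have hNM : N ≤ M := by
    rintro _ ⟨x, -, rfl⟩
    exact x.2
  have hNn : ∀ m ∈ M, ∀ x ∈ N, m * x * m⁻¹ ∈ N := by
    rintro m hm _ ⟨x, hx, rfl⟩
    exact ⟨⟨m, hm⟩ * x * ⟨m, hm⟩⁻¹, hLn.conj_mem x hx _, rfl⟩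
  have hssm := ssm_of_normal hM hNM hNn
  have hcM : Inv (ad ρ) M (cent ρ N) := by
    intro m hm X hX n hn
    have h1 := hX _ (hNn m⁻¹ (M.inv_mem hm) n hn)
    rw [inv_inv] at h1
    rw [ad_apply]
    have h2 : ρ m⁻¹ * ρ n = ρ (m⁻¹ * n * m) * ρ m⁻¹ := by
      rw [← map_mul, ← map_mul]; congr 1; group
    have h3 : ρ m * ρ (m⁻¹ * n * m) = ρ n * ρ m := by
      rw [← map_mul, ← map_mul]; congr 1; group
    calc ρ m * X * ρ m⁻¹ * ρ n = ρ m * X * (ρ m⁻¹ * ρ n) := by rw [mul_assoc]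
      _ = ρ m * (X * ρ (m⁻¹ * n * m)) * ρ m⁻¹ := by rw [h2]; simp only [mul_assoc]
      _ = ρ m * (ρ (m⁻¹ * n * m) * X) * ρ m⁻¹ := by rw [h1]
      _ = (ρ m * ρ (m⁻¹ * n * m)) * X * ρ m⁻¹ := by simp only [mul_assoc]
      _ = ρ n * (ρ m * X * ρ m⁻¹) := by rw [h3]; simp only [mul_assoc]
  have hcG := hD _ hcM
  rcases hT N hssm hcG with h1 | h1
  · -- `N` is scalar
    apply hna
    refine ⟨⟨fun a b => ?_⟩⟩
    obtain ⟨x, hx, rfl⟩ := hex i₀ a
    obtain ⟨y, hy, rfl⟩ := hex i₀ b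
    have h2 : x * y * x⁻¹ * y⁻¹ ∈ L := Subgroup.commutator_mem_commutator hx hy
    obtain ⟨c, hc⟩ := h1 _ ⟨_, h2, rfl⟩
    have h3 : x * y * x⁻¹ * y⁻¹ ∈ Subgroup.center M := by
      rw [Subgroup.mem_center_iff]
      intro g
      apply Subtype.ext
      exact (comm_of_scalar hinj hc (g : G)).symm
    have h4 := (hπk _).2 h3
    have h5 : π x * π y = π y * π x := by
      have h6 : π x * π y * (π x)⁻¹ * (π y)⁻¹ = 1 := by
        rw [← map_inv, ← map_inv, ← map_mul, ← map_mul, ← map_mul]; exact h4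
      rw [mul_inv_eq_one, mul_inv_eq_iff_eq_mul] at h6
      exact h6
    exact congrFun h5 i₀
  · -- the other factors centralise `N`
    have hne : Nontrivial T := inferInstance
    obtain ⟨t, ht⟩ := exists_ne (1 : T)
    obtain ⟨x, hx, hxt⟩ := hex i₁ t
    have hcz : ∀ a ∈ P i₀, a * x * a⁻¹ * x⁻¹ ∈ Subgroup.center M := by
      intro a ha
      rw [← hπk]
      funext j
      rw [map_mul, map_mul, map_mul, map_inv, map_inv]
      change π a j * π x j * (π a j)⁻¹ * (π x j)⁻¹ = 1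
      by_cases hj : j = i₀
      · rw [hx j (by rw [hj]; exact hi), mul_one, mul_inv_cancel, one_mul, inv_one]
      · rw [ha j hj, one_mul, inv_one, mul_one, mul_inv_cancel]
    have hxc : ρ (x : G) ∈ cent ρ N := by
      rintro _ ⟨a, ha, rfl⟩
      have h2 := comm_of_center hcz a ha
      change ρ (x : G) * ρ ((a : M) : G) = ρ ((a : M) : G) * ρ (x : G)
      rw [← map_mul, ← map_mul]
      exact congrArg ρ (congrArg Subtype.val h2).symm
    obtain ⟨c, hc⟩ := h1 _ hxc
    have h3 : x ∈ Subgroup.center M := by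
      rw [Subgroup.mem_center_iff]
      intro g
      apply Subtype.ext
      exact (comm_of_scalar hinj hc (g : G)).symm
    have h4 := (hπk _).2 h3
    apply ht
    rw [← hxt, h4]
    rfl

/-! ### C6 -/

theorem small_comp {K : Type u} [Field K] [IsAlgClosed K] {G : Type w} [Group G] [Finite G] {V : Type v}
    [AddCommGroup V] [Module K V] [FiniteDimensional K V] {ρ : G →* Module.End K V} {H M : Subgroup G}
    (hMH : M ≤ H) (hn : ∀ h ∈ H, ∀ m ∈ M, h * m * h⁻¹ ∈ M) (hM : Irr ρ M) (hp : commutator M = ⊤)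
    {y : G} (hy : y ∈ H) :
    ∃ k, 0 < k ∧ k ≤ (Nat.card (M ⧸ Subgroup.center M)).factorial ∧ ∃ c : K, ρ (y ^ k) = c • 1 := by
  classical
  -- the action on `M`
  let Φ : H →* MulAut M :=
    { toFun := fun h =>
        { toFun := fun m => ⟨h * m * (h : G)⁻¹, hn h h.2 m m.2⟩
          invFun := fun m => ⟨(h : G)⁻¹ * m * h, by
            have := hn (h : G)⁻¹ (H.inv_mem h.2) m m.2
            rwa [inv_inv] at this⟩
          left_inv := fun m => by
            apply Subtype.ext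
            change (h : G)⁻¹ * (h * m * (h : G)⁻¹) * h = m
            group
          right_inv := fun m => by
            apply Subtype.ext
            change (h : G) * ((h : G)⁻¹ * m * h) * (h : G)⁻¹ = m
            group
          map_mul' := fun a b => by
            apply Subtype.ext
            change (h : G) * (a * b) * (h : G)⁻¹ = (h * a * (h : G)⁻¹) * (h * b * (h : G)⁻¹)
            group }
      map_one' := by
        refine MulEquiv.ext fun m => Subtype.ext ?_
        change (1 : G) * m * (1 : G)⁻¹ = m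
        group
      map_mul' := fun a b => by
        refine MulEquiv.ext fun m => Subtype.ext ?_
        change (a * b : G) * m * (a * b : G)⁻¹ = a * (b * m * (b : G)⁻¹) * (a : G)⁻¹
        group }
  have hcen : ∀ α : MulAut M, (Subgroup.center M).map (α : M →* M) = Subgroup.center M := fun α =>
    Subgroup.characteristic_iff_map_eq.1 inferInstance α
  let Ψ : H →* Equiv.Perm (M ⧸ Subgroup.center M) :=
    { toFun := fun h => (QuotientGroup.congr _ _ (Φ h) (hcen (Φ h))).toEquiv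
      map_one' := by
        refine Equiv.ext fun q => ?_
        induction q using QuotientGroup.induction_on with
        | H m =>
          change ((Φ 1 m : M) : M ⧸ Subgroup.center M) = (m : M ⧸ Subgroup.center M)
          rw [map_one]
          rfl
      map_mul' := fun a b => by
        refine Equiv.ext fun q => ?_
        induction q using QuotientGroup.induction_on with
        | H m =>
          change ((Φ (a * b) m : M) : M ⧸ Subgroup.center M) = ((Φ a (Φ b m) : M) : M ⧸ Subgroup.center M)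
          rw [map_mul]
          rfl }
  set y' : H := ⟨y, hy⟩ with hy'
  have hfin : Finite (M ⧸ Subgroup.center M) := inferInstance
  refine ⟨orderOf (Ψ y'), orderOf_pos _, ?_, ?_⟩
  · have h1 : orderOf (Ψ y') ≤ Nat.card (Equiv.Perm (M ⧸ Subgroup.center M)) :=
      orderOf_le_card
    rwa [Nat.card_perm] at h1
  set k := orderOf (Ψ y') with hk
  have h1 : Ψ (y' ^ k) = 1 := by rw [map_pow, pow_orderOf_eq_one]
  have hz : ∀ m : M, Φ (y' ^ k) m * m⁻¹ ∈ Subgroup.center M := by
    intro m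
    have h2 : (Ψ (y' ^ k)) (m : M ⧸ Subgroup.center M) = (m : M ⧸ Subgroup.center M) := by rw [h1]; rfl
    have h3 : ((Φ (y' ^ k) m : M) : M ⧸ Subgroup.center M) = (m : M ⧸ Subgroup.center M) := h2
    rw [← QuotientGroup.eq_one_iff, QuotientGroup.mk_mul, QuotientGroup.mk_inv, h3, mul_inv_cancel]
  have hφ := aut_trivial hp _ hz
  apply cent_scalar hM
  intro m hm
  have h2 := congrArg Subtype.val (hφ ⟨m, hm⟩)
  have h3 : y ^ k * m * (y ^ k)⁻¹ = m := h2
  rw [← map_mul, ← map_mul]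
  exact congrArg ρ (mul_inv_eq_iff_eq_mul.1 h3)

end Cfsg.Agent.H545.BR
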